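import Cfsg.Agent.Lib.SporadicB.Fi23Derived.Defs
import Cfsg.Agent.Lib.SporadicB.Fi23Derived.Levels

/-! Checks on the 324 points and the chain. -/

set_option autoImplicit false
set_option maxRecDepth 100000
set_option Elab.async false
set_option linter.all false

namespace CfsgLib.SporadicB.Fi23Derived

open CfsgLib.SporRecognition.CosetCert
open CfsgLib.SporRecognition.Cert
open Cfsg.Spor.Fi23 (Gen)

/-- The check of a point number. -/
noncomputable def ptStep (i : Nat) : Bool :=
  Nat.blt (P i) 31671 && Nat.beq (tr (path i) (CfsgLib.SporadicB.Fi23Sylow.pt (start i))) (P i) &&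
    (decide (324 ≤ i) || inS (P i))

theorem pt_ok : allBelow 10 649 ptStep = true := by decide +kernel

theorem S0_lt : S0.all (fun i => decide (i < 324)) = true := by decide +kernel

theorem S0_inv : S0.all (fun c => (List.range 324).all fun i => inS (act c (P i))) = true := by decide +kernel

theorem clo_ok : derivesOK S0 clo = true := by decide +kernel

theorem fromBase_ok : derivesOK base fromBase = true := by decide +kernel

theorem elts_ok : elts.all (fun ds => S0.all fun i => inS (tr (eW ds) (P i))) = true := by decide +kernel

theorem outside_ok : inS (tr [(outside.1, true)] (P outside.2)) = false ∧ outside.2 < 324 := by decide +kernel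

end CfsgLib.SporadicB.Fi23Derived
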