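import Cfsg.Agent.Lib.SporadicB.Fi23Derived.Defs
import Cfsg.Agent.Lib.SporadicB.Fi23Derived.Levels

/-! The terms of the ten generators in the overgroups. -/

set_option autoImplicit false
set_option maxRecDepth 100000
set_option Elab.async false
set_option linter.all false

namespace CfsgLib.SporadicB.Fi23Derived

open CfsgLib.SporRecognition.CosetCert
open CfsgLib.SporRecognition.Cert
open Cfsg.Spor.Fi23 (Gen)

/-- One orbit outside. -/
noncomputable def bigStep (d : Nat × Option (Nat × Nat) × List (List Nat × Nat)) : Bool :=
  decide (d.2.2.length = 10) &&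
  (match d.2.1 with
    | none => true
    | some (g, x) => decide (g < elts.length) && Nat.beq (tr (eW (elts.getD g [])) (P d.1)) (P x)) &&
  (List.range 10).all fun j =>
    Nat.beq (evalT id (d.2.2.getD j ([], 0)))
        (CfsgLib.SporadicB.Fi23Sylow.pt (Fi23X.invols.getD j .a)) &&
      ((d.2.2.getD j ([], 0)).2 :: (d.2.2.getD j ([], 0)).1).all fun i =>
        decide (i < 324) || Nat.beq i d.1 || (match d.2.1 with | none => false | some (_, x) => Nat.beq i x)

theorem big_ok : bigData.all bigStep = true := by decide +kernel

end CfsgLib.SporadicB.Fi23Derived
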