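import Cfsg.Agent.Lib.SporadicB.Fi23Derived.Points
import Cfsg.Agent.Lib.SporadicB.Fi23Sylow.Base

/-! Words and checks for the stabiliser of 324 points in Fi23. -/

set_option autoImplicit false

namespace CfsgLib.SporadicB.Fi23Derived

open CfsgLib.SporRecognition.CosetCert
open CfsgLib.SporRecognition.Cert
open Cfsg.Spor.Fi23 (Gen)

/-- Point number `i`. -/
def P (i : Nat) : Nat := (ptTab.getD i (0, [], .a)).1

/-- The path to point number `i`. -/
def path (i : Nat) : List (Gen × Bool) := (ptTab.getD i (0, [], .a)).2.1.map fun a => (a, true)

/-- The generator where the path starts. -/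
def start (i : Nat) : Gen := (ptTab.getD i (0, [], .a)).2.2

/-- The transposition belonging to point number `i`. -/
def wd (i : Nat) : List (Gen × Bool) := path i ++ [(start i, true)] ++ FreeGroup.invRev (path i)

/-- The action of a word. -/
noncomputable def tr (w : List (Gen × Bool)) (v : Nat) : Nat := trace (wordTabs Fi23X.tabs w) v

/-- The action of transposition number `i`. -/
noncomputable def act (i v : Nat) : Nat := tr (wd i) v

/-- A product of transpositions. -/
def eW (ds : List Nat) : List (Gen × Bool) := ds.flatMap wd

/-- Membership in the set of 324 points. -/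
def inS (v : Nat) : Bool := Nat.beq (Nat.land (Nat.shiftRight sBits v) 1) 1

/-- A leaf conjugated by leaves. -/
noncomputable def evalT (ρ : Nat → Nat) (t : List Nat × Nat) : Nat :=
  t.1.foldr (fun c x => act (ρ c) x) (P (ρ t.2))

/-- Leaves: a list, then a default. -/
def leaves (pre : List Nat) (b : Nat) (c : Nat) : Nat := pre.getD c b

/-- The pattern of point number `w` against terms. -/
noncomputable def code (terms : List (List Nat × Nat)) (ρ : Nat → Nat) (w : Nat) : Nat :=
  terms.foldr (fun t acc =>
    (bif Nat.beq (act w (evalT ρ t)) (evalT ρ t) then 1 else 0) + (bif Nat.beq (P w) (evalT ρ t) then 2 else 0) +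
      4 * acc) 0

/-- Why a point is in the orbit or not. -/
inductive Wit where
  | mem (p : Nat)
  | eqn (t1 t2 : List Nat × Nat)
  | pat (w : Nat)

/-- Data of one step of the chain. -/
structure Level where
  pre : List Nat
  b : Nat
  orbit : List Nat
  steps : List (Nat × Nat)
  gens : List Nat
  terms : List (List Nat × Nat)
  pats : List Nat
  wit : List Wit

/-- The check of the orbit of a step. -/
noncomputable def orbitOK (els : List (List Nat)) (L : Level) : Bool :=
  decide (L.b < 324) && L.pre.all (fun i => decide (i < 324)) && L.orbit.all (fun i => decide (i < 324)) &&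
  L.gens.all (fun g => L.pre.all fun i => Nat.beq (tr (eW (els.getD g [])) (P i)) (P i)) &&
  Nat.beq (L.orbit.getD 0 0) L.b &&
  (List.range L.orbit.length).all fun j => Nat.beq j 0 ||
    (decide ((L.steps.getD j (0, 0)).1 < j) && L.gens.contains (L.steps.getD j (0, 0)).2 &&
      Nat.beq (tr (eW (els.getD (L.steps.getD j (0, 0)).2 [])) (P (L.orbit.getD (L.steps.getD j (0, 0)).1 0)))
        (P (L.orbit.getD j 0)))

/-- The check of one point against a step. -/
noncomputable def witStep (L : Level) (v : Nat) : Bool :=
  match L.wit.getD v (.mem L.orbit.length) with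
  | .mem p => decide (p < L.orbit.length) && Nat.beq (L.orbit.getD p 0) v
  | .eqn t1 t2 =>
      (Nat.beq (evalT (leaves L.pre L.b) t1) (evalT (leaves L.pre L.b) t2)) !=
        (Nat.beq (evalT (leaves L.pre v) t1) (evalT (leaves L.pre v) t2))
  | .pat w => decide (w < 324) && !L.pats.isEmpty && !L.pats.contains (code L.terms (leaves L.pre v) w)

/-- The check of the patterns of a step. -/
noncomputable def patStep (L : Level) (w : Nat) : Bool :=
  L.pats.isEmpty || L.pats.contains (code L.terms (leaves L.pre L.b) w)

/-- Each listed triple is a product of earlier ones. -/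
noncomputable def derivesOK : List Nat → List (Nat × Nat × Nat) → Bool
  | known, [] => (List.range 324).all fun i => known.contains i
  | known, (q, c, a) :: l =>
      known.contains c && known.contains a && decide (q < 324) && Nat.beq (act c (P a)) (P q) &&
        derivesOK (q :: known) l

/-- The check of one layer of commutators. -/
noncomputable def derOK (prev : List (List Nat)) (cur : List (List Nat × List Nat × List Nat)) : Bool :=
  cur.all fun x => x.2.1.all (fun i => decide (i < prev.length)) && x.2.2.all (fun i => decide (i < prev.length)) &&
    CfsgLib.SporadicB.Fi23Sylow.eqPts (eW x.1)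
      (eW (x.2.1.flatMap fun i => prev.getD i []) ++ eW (x.2.2.flatMap fun i => prev.getD i []) ++
        FreeGroup.invRev (eW (x.2.1.flatMap fun i => prev.getD i [])) ++
        FreeGroup.invRev (eW (x.2.2.flatMap fun i => prev.getD i [])))

end CfsgLib.SporadicB.Fi23Derived
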