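import Cfsg.Agent.Lib.SporadicB.Fi23Derived.Defs
import Cfsg.Agent.Lib.SporadicB.Fi23Derived.Levels
import Cfsg.Agent.Lib.SporadicB.Fi23Derived.DerData

/-! Part 0 of the commutator witnesses. -/

set_option autoImplicit false
set_option maxRecDepth 100000
set_option Elab.async false
set_option linter.all false

namespace CfsgLib.SporadicB.Fi23Derived

open CfsgLib.SporRecognition.CosetCert
open CfsgLib.SporRecognition.Cert
open Cfsg.Spor.Fi23 (Gen)

theorem der1_ok : derOK elts der1 = true := by decide +kernel

theorem der2_ok : derOK (der1.map fun x => x.1) der2 = true := by decide +kernel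

theorem der3_ok : derOK (der2.map fun x => x.1) der3 = true := by decide +kernel

theorem der4_ok : derOK (der3.map fun x => x.1) der4 = true := by decide +kernel

end CfsgLib.SporadicB.Fi23Derived
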