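import Cfsg.Agent.Lib.SporadicB.Fi23Derived.Defs
import Cfsg.Agent.Lib.SporadicB.Fi23Derived.Levels
import Cfsg.Agent.Lib.SporadicB.Fi23Derived.DerData

/-! Part 3 of the commutator witnesses. -/

set_option autoImplicit false
set_option maxRecDepth 100000
set_option Elab.async false
set_option linter.all false

namespace CfsgLib.SporadicB.Fi23Derived

open CfsgLib.SporRecognition.CosetCert
open CfsgLib.SporRecognition.Cert
open Cfsg.Spor.Fi23 (Gen)

theorem der7_ok : derOK (der6.map fun x => x.1) der7 = true := by decide +kernel

theorem der8_ok : derOK (der7.map fun x => x.1) der8 = true := by decide +kernel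

theorem der9_ok : derOK (der8.map fun x => x.1) der9 = true := by decide +kernel

theorem last_ne : Fi23X.invols.any (fun a =>
    !(Nat.beq (tr (eW ((der9.map fun x => x.1).getD 0 [])) (CfsgLib.SporadicB.Fi23Sylow.pt a))
      (CfsgLib.SporadicB.Fi23Sylow.pt a))) = true := by decide +kernel

end CfsgLib.SporadicB.Fi23Derived
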