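import Cfsg.Agent.Lib.SporadicB.Fi23Derived.Stab
import Cfsg.Agent.Lib.SporadicB.Fi23Derived.DerCheck0
import Cfsg.Agent.Lib.SporadicB.Fi23Derived.DerCheck1
import Cfsg.Agent.Lib.SporadicB.Fi23Derived.DerCheck2
import Cfsg.Agent.Lib.SporadicB.Fi23Derived.DerCheck3
import Cfsg.Agent.Lib.CharTheory.Burnside
import Mathlib.GroupTheory.Solvable

/-! The ninth derived group of the stabiliser of the 324 points is not perfect. -/

set_option autoImplicit false
set_option linter.all false
set_option maxRecDepth 20000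

namespace CfsgLib.SporadicB.Fi23Derived

open CfsgLib.SporRecognition.CosetCert
open CfsgLib.SporRecognition.Cert
open CfsgLib.SporadicB.Fi23
open CfsgLib.SporadicB.Fi23Sylow (pt pt_lt invols_all ev_eq_of_eqPts)
open Cfsg.Agent.S1688 (R23)
open scoped commutatorElement

local notation "ev" => evalW (PresentedGroup.of (rels := R23))

/-- The derived series of the stabiliser inside the big group. -/
noncomputable def DD (k : ℕ) : Subgroup GG := (derivedSeries HH k).map HH.subtype

theorem DD_succ (k : ℕ) : DD (k + 1) = ⁅DD k, DD k⁆ := by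
  rw [DD, DD, derivedSeries_succ, Subgroup.map_commutator]

theorem DD_zero : DD 0 = HH := by
  rw [DD, derivedSeries_zero, ← MonoidHom.range_eq_map, Subgroup.range_subtype]

theorem eW_flat_mem (K : Subgroup GG) (prev : List (List Nat)) (hprev : ∀ ds ∈ prev, ev (eW ds) ∈ K)
    (idxs : List Nat) (hi : ∀ i ∈ idxs, i < prev.length) : ev (eW (idxs.flatMap fun i => prev.getD i [])) ∈ K := by
  induction idxs with
  | nil => exact one_mem K
  | cons i l ih =>
    rw [List.flatMap_cons, eW, List.flatMap_append, evalW_append]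
    have h := hi i (List.mem_cons_self ..)
    refine mul_mem ?_ (ih fun j hj => hi j (List.mem_cons_of_mem _ hj))
    rw [List.getD_eq_getElem _ _ h]
    exact hprev _ (List.getElem_mem h)

theorem layer_mem (k : ℕ) (prev : List (List Nat)) (cur : List (List Nat × List Nat × List Nat))
    (hok : derOK prev cur = true) (hprev : ∀ ds ∈ prev, ev (eW ds) ∈ DD k) :
    ∀ ds ∈ cur.map (fun x => x.1), ev (eW ds) ∈ DD (k + 1) := by
  intro ds hds
  obtain ⟨x, hx, rfl⟩ := List.mem_map.mp hds
  simp only [derOK, List.all_eq_true, Bool.and_eq_true, decide_eq_true_eq] at hok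
  obtain ⟨⟨ha, hb⟩, he⟩ := hok x hx
  rw [ev_eq_of_eqPts he, evalW_append, evalW_append, evalW_append, ev_invRev, ev_invRev, DD_succ,
    ← commutatorElement_def]
  exact Subgroup.commutator_mem_commutator (eW_flat_mem _ prev hprev _ ha) (eW_flat_mem _ prev hprev _ hb)

theorem elts_mem : ∀ ds ∈ elts, ev (eW ds) ∈ DD 0 := by
  intro ds hds
  obtain ⟨k, hk, rfl⟩ := List.getElem_of_mem hds
  have h := el_mem k
  rw [el, List.getD_eq_getElem _ _ hk] at h
  rwa [DD_zero]

theorem der9_mem : ∀ ds ∈ der9.map (fun x => x.1), ev (eW ds) ∈ DD 9 :=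
  layer_mem _ _ _ der9_ok (layer_mem _ _ _ der8_ok (layer_mem _ _ _ der7_ok (layer_mem _ _ _ der6_ok
    (layer_mem _ _ _ der5_ok (layer_mem _ _ _ der4_ok (layer_mem _ _ _ der3_ok (layer_mem _ _ _ der2_ok
      (layer_mem _ _ _ der1_ok elts_mem))))))))

theorem DD9_ne_bot : DD 9 ≠ ⊥ := by
  intro h
  have hlen : 0 < (der9.map fun x => x.1).length := by decide +kernel
  have hm : ev (eW ((der9.map fun x => x.1).getD 0 [])) ∈ DD 9 := by
    rw [List.getD_eq_getElem _ _ hlen]
    exact der9_mem _ (List.getElem_mem hlen)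
  rw [h, Subgroup.mem_bot] at hm
  obtain ⟨a, -, ha⟩ := List.any_eq_true.mp last_ne
  have e : sigma (ev (eW ((der9.map fun x => x.1).getD 0 []))) ⟨pt a, pt_lt a⟩ = ⟨pt a, pt_lt a⟩ := by
    rw [hm, map_one, Equiv.Perm.one_apply]
  have e' := congrArg Fin.val e
  rw [sigma_tr] at e'
  have e'' : Nat.beq (tr (eW ((der9.map fun x => x.1).getD 0 [])) (pt a)) (pt a) = true :=
    Nat.beq_eq.mpr e'
  rw [e''] at ha
  exact Bool.false_ne_true ha

theorem finite_GG : Finite GG :=
  Nat.finite_of_card_ne_zero (by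
    have h : Nat.card GG = 4089470473293004800 := Cfsg.Agent.S1697.result.2
    rw [h]
    norm_num)

/-- The ninth derived group is not perfect. -/
theorem derived_ne : derivedSeries HH 10 ≠ derivedSeries HH 9 := by
  haveI := finite_GG
  have hsol : Group.IsSolvable HH :=
    CfsgLib.CharTheory.isSolvable_of_card_dvd_pow_mul_pow 2 3 40 40 Nat.prime_two Nat.prime_three card_HH_dvd
  intro h
  obtain ⟨n, hn⟩ := hsol.solvable
  have hconst : ∀ m, derivedSeries HH (9 + m) = derivedSeries HH 9 := by
    intro m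
    induction m with
    | zero => rfl
    | succ m ih =>
      rw [← add_assoc, derivedSeries_succ, ih, ← derivedSeries_succ]
      exact h
  refine DD9_ne_bot ?_
  have hbot : derivedSeries HH 9 = ⊥ := by
    rw [← hconst n, ← le_bot_iff, ← hn]
    exact derivedSeries_antitone HH (Nat.le_add_left n 9)
  rw [DD, hbot, Subgroup.map_bot]

end CfsgLib.SporadicB.Fi23Derived
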