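import Cfsg.Agent.Lib.SporadicB.Fi23Derived.BaseCheck

/-! The stabiliser of the 324 points and the conjugation of transpositions. -/

set_option autoImplicit false
set_option linter.all false
set_option maxRecDepth 20000

namespace CfsgLib.SporadicB.Fi23Derived

open CfsgLib.SporRecognition.CosetCert
open CfsgLib.SporRecognition.Cert
open CfsgLib.SporadicB.Fi23
open CfsgLib.SporadicB.Fi23Sylow (pt pt_lt rep_all invols_all eq_one_of_fix)
open Cfsg.Agent.S1688 (R23)

local notation "ev" => evalW (PresentedGroup.of (rels := R23))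

theorem P_ok {i : Nat} (hi : i < 649) : ptStep i = true := allBelow_spec pt_ok i hi

theorem P_lt (i : Nat) : P i < 31671 := by
  by_cases hi : i < 649
  · have h := P_ok hi
    simp only [ptStep, Bool.and_eq_true, Nat.blt_eq] at h
    exact h.1.1
  · rw [P, List.getD_eq_default _ _ (le_trans (show ptTab.length ≤ 649 by decide +kernel) (Nat.le_of_not_lt hi))]
    norm_num

/-- A point of the table. -/
def Q (i : Nat) : Fin 31671 := ⟨P i, P_lt i⟩

theorem sigma_tr (w : List (Cfsg.Spor.Fi23.Gen × Bool)) (u : Fin 31671) :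
    ((sigma (ev w) u : Fin 31671) : Nat) = tr w u := sigma_evalW w u

theorem sigma_eW_flat (ds : List Nat) : ev (eW ds) = (ds.map fun d => ev (wd d)).prod := by
  induction ds with
  | nil => rfl
  | cons d ds ih =>
    rw [List.map_cons, List.prod_cons, ← ih, ← evalW_append]
    rfl

/-- The transpositions with their points. -/
theorem exists_trans {i : Nat} (hi : i < 649) :
    ∃ h : GG, sigma h 0 = Q i ∧ ev (wd i) = h * zz * h⁻¹ := by
  obtain ⟨k, hk, he⟩ := rep_all (start i)
  have h := P_ok hi
  simp only [ptStep, Bool.and_eq_true, Nat.beq_eq] at h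
  refine ⟨ev (path i) * k, ?_, ?_⟩
  · rw [map_mul, Equiv.Perm.mul_apply]
    refine Fin.ext ?_
    rw [sigma_tr, hk]
    exact h.1.2
  · rw [wd, evalW_append, evalW_append, ev_invRev,
      show ev [(start i, true)] = PresentedGroup.of (rels := R23) (start i) by simp [evalW_eq_prod], he]
    group

/-- Elements over the same point conjugate the transposition alike. -/
theorem conj_zz_eq {h h' : GG} (e : sigma h 0 = sigma h' 0) : h * zz * h⁻¹ = h' * zz * h'⁻¹ := by
  have hw : h'⁻¹ * h ∈ WW := by
    rw [← mem_WW_iff, map_mul, map_inv, Equiv.Perm.mul_apply, e]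
    exact Equiv.symm_apply_apply _ _
  calc h * zz * h⁻¹ = h' * ((h'⁻¹ * h) * zz) * h⁻¹ := by group
    _ = h' * (zz * (h'⁻¹ * h)) * h⁻¹ := by rw [zz_comm hw]
    _ = _ := by group

theorem conj_trans {g : GG} {i j : Nat} (hi : i < 649) (hj : j < 649) (e : sigma g (Q i) = Q j) :
    g * ev (wd i) * g⁻¹ = ev (wd j) := by
  obtain ⟨h, h1, h2⟩ := exists_trans hi
  obtain ⟨h', h1', h2'⟩ := exists_trans hj
  rw [h2, h2', ← conj_zz_eq (h := g * h) (h' := h') (by rw [map_mul, Equiv.Perm.mul_apply, h1, e, h1'])]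
  group

/-- Transposition number `i` on the points. -/
noncomputable def actF (i : Nat) (v : Fin 31671) : Fin 31671 := sigma (ev (wd i)) v

theorem actF_val (i : Nat) (v : Fin 31671) : (actF i v : Nat) = act i v := sigma_tr _ _

theorem equivariant {g : GG} {i j : Nat} (hi : i < 649) (hj : j < 649) (e : sigma g (Q i) = Q j) (v : Fin 31671) :
    sigma g (actF i v) = actF j (sigma g v) := by
  rw [actF, actF, ← conj_trans hi hj e, map_mul, map_mul, map_inv, Equiv.Perm.mul_apply, Equiv.Perm.mul_apply,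
    Equiv.Perm.inv_def, Equiv.symm_apply_apply]

/-- A term as a point. -/
noncomputable def valT (ρ : Nat → Nat) (t : List Nat × Nat) : Fin 31671 :=
  t.1.foldr (fun c x => actF (ρ c) x) (Q (ρ t.2))

theorem valT_val (ρ : Nat → Nat) (t : List Nat × Nat) : (valT ρ t : Nat) = evalT ρ t := by
  obtain ⟨l, j⟩ := t
  induction l with
  | nil => rfl
  | cons c l ih =>
    show ((actF (ρ c) (valT ρ (l, j)) : Fin 31671) : Nat) = act (ρ c) (evalT ρ (l, j))
    rw [actF_val, ih]

theorem map_valT {g : GG} {ρ ρ' : Nat → Nat} (hρ : ∀ c, ρ c < 649 ∧ ρ' c < 649 ∧ sigma g (Q (ρ c)) = Q (ρ' c))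
    (t : List Nat × Nat) : sigma g (valT ρ t) = valT ρ' t := by
  obtain ⟨l, j⟩ := t
  induction l with
  | nil => exact (hρ j).2.2
  | cons c l ih =>
    show sigma g (actF (ρ c) (valT ρ (l, j))) = actF (ρ' c) (valT ρ' (l, j))
    rw [equivariant (hρ c).1 (hρ c).2.1 (hρ c).2.2, ih]

/-- The set of 324 points. -/
def SS : Set (Fin 31671) := {v | ∃ i, i < 324 ∧ Q i = v}

theorem inS_of_mem {v : Fin 31671} (h : v ∈ SS) : inS v = true := by
  obtain ⟨i, hi, rfl⟩ := h
  have h := P_ok (i := i) (by omega)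
  simp only [ptStep, Bool.and_eq_true, Bool.or_eq_true, decide_eq_true_eq] at h
  exact h.2.resolve_left (by omega)

theorem derives {p : Nat → Prop} : ∀ (known : List Nat) (l : List (Nat × Nat × Nat)), derivesOK known l = true →
    (∀ i ∈ known, p i) →
    (∀ q c a, p c → p a → q < 324 → act c (P a) = P q → p q) → ∀ i, i < 324 → p i
  | known, [], h, hk, _, i, hi => by
    simp only [derivesOK, List.all_eq_true, List.mem_range] at h
    exact hk i (List.contains_iff_mem.mp (h i hi))
  | known, (q, c, a) :: l, h, hk, hs, i, hi => by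
    simp only [derivesOK, Bool.and_eq_true, decide_eq_true_eq, Nat.beq_eq] at h
    obtain ⟨⟨⟨⟨hc, ha⟩, hq⟩, he⟩, hl⟩ := h
    refine derives (q :: known) l hl (fun j hj => ?_) hs i hi
    rcases List.mem_cons.mp hj with rfl | hj
    · exact hs _ _ _ (hk c (List.contains_iff_mem.mp hc)) (hk a (List.contains_iff_mem.mp ha)) hq he
    · exact hk j hj

theorem S0_mem_lt {i : Nat} (h : i ∈ S0) : i < 324 := by
  simpa using List.all_eq_true.mp S0_lt i h

end CfsgLib.SporadicB.Fi23Derived
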