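import Cfsg.Agent.Lib.SporadicB.Fi23Derived.Scan

/-! Part 1 of a scan. -/

set_option autoImplicit false
set_option maxRecDepth 100000
set_option Elab.async false
set_option linter.all false

namespace CfsgLib.SporadicB.Fi23Derived

open CfsgLib.SporRecognition.CosetCert
open CfsgLib.SporRecognition.Cert
open Cfsg.Spor.Fi23 (Gen)

theorem ker_c16 : allPow 31671 kerStep 10 16384 = true := by decide +kernel

theorem ker_c17 : allPow 31671 kerStep 10 17408 = true := by decide +kernel

theorem ker_c18 : allPow 31671 kerStep 10 18432 = true := by decide +kernel

theorem ker_c19 : allPow 31671 kerStep 10 19456 = true := by decide +kernel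

theorem ker_c20 : allPow 31671 kerStep 10 20480 = true := by decide +kernel

theorem ker_c21 : allPow 31671 kerStep 10 21504 = true := by decide +kernel

theorem ker_c22 : allPow 31671 kerStep 10 22528 = true := by decide +kernel

theorem ker_c23 : allPow 31671 kerStep 10 23552 = true := by decide +kernel

theorem ker_c24 : allPow 31671 kerStep 10 24576 = true := by decide +kernel

theorem ker_c25 : allPow 31671 kerStep 10 25600 = true := by decide +kernel

theorem ker_c26 : allPow 31671 kerStep 10 26624 = true := by decide +kernel

theorem ker_c27 : allPow 31671 kerStep 10 27648 = true := by decide +kernel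

theorem ker_c28 : allPow 31671 kerStep 10 28672 = true := by decide +kernel

theorem ker_c29 : allPow 31671 kerStep 10 29696 = true := by decide +kernel

theorem ker_c30 : allPow 31671 kerStep 10 30720 = true := by decide +kernel

theorem ker_c31 : allPow 31671 kerStep 10 31744 = true := by decide +kernel

end CfsgLib.SporadicB.Fi23Derived
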