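import Cfsg.Agent.Lib.SporadicB.Fi23Derived.KerCheck0
import Cfsg.Agent.Lib.SporadicB.Fi23Derived.KerCheck1
import Cfsg.Agent.Lib.SporRecognition.CosetCert.Chain

/-! A scan put together. -/

set_option autoImplicit false
set_option maxRecDepth 100000
set_option Elab.async false
set_option linter.all false

namespace CfsgLib.SporadicB.Fi23Derived

open CfsgLib.SporRecognition.CosetCert
open CfsgLib.SporRecognition.Cert
open Cfsg.Spor.Fi23 (Gen)

theorem ker_spec (v : Nat) (hv : v < 31671) : kerStep v = true := by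
  by_cases h0 : v < 1024
  · exact allPow_spec _ _ _ _ ker_c0 v (by omega) h0 hv
  by_cases h1 : v < 2048
  · exact allPow_spec _ _ _ _ ker_c1 v (by omega) h1 hv
  by_cases h2 : v < 3072
  · exact allPow_spec _ _ _ _ ker_c2 v (by omega) h2 hv
  by_cases h3 : v < 4096
  · exact allPow_spec _ _ _ _ ker_c3 v (by omega) h3 hv
  by_cases h4 : v < 5120
  · exact allPow_spec _ _ _ _ ker_c4 v (by omega) h4 hv
  by_cases h5 : v < 6144
  · exact allPow_spec _ _ _ _ ker_c5 v (by omega) h5 hv
  by_cases h6 : v < 7168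
  · exact allPow_spec _ _ _ _ ker_c6 v (by omega) h6 hv
  by_cases h7 : v < 8192
  · exact allPow_spec _ _ _ _ ker_c7 v (by omega) h7 hv
  by_cases h8 : v < 9216
  · exact allPow_spec _ _ _ _ ker_c8 v (by omega) h8 hv
  by_cases h9 : v < 10240
  · exact allPow_spec _ _ _ _ ker_c9 v (by omega) h9 hv
  by_cases h10 : v < 11264
  · exact allPow_spec _ _ _ _ ker_c10 v (by omega) h10 hv
  by_cases h11 : v < 12288
  · exact allPow_spec _ _ _ _ ker_c11 v (by omega) h11 hv
  by_cases h12 : v < 13312
  · exact allPow_spec _ _ _ _ ker_c12 v (by omega) h12 hv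
  by_cases h13 : v < 14336
  · exact allPow_spec _ _ _ _ ker_c13 v (by omega) h13 hv
  by_cases h14 : v < 15360
  · exact allPow_spec _ _ _ _ ker_c14 v (by omega) h14 hv
  by_cases h15 : v < 16384
  · exact allPow_spec _ _ _ _ ker_c15 v (by omega) h15 hv
  by_cases h16 : v < 17408
  · exact allPow_spec _ _ _ _ ker_c16 v (by omega) h16 hv
  by_cases h17 : v < 18432
  · exact allPow_spec _ _ _ _ ker_c17 v (by omega) h17 hv
  by_cases h18 : v < 19456
  · exact allPow_spec _ _ _ _ ker_c18 v (by omega) h18 hv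
  by_cases h19 : v < 20480
  · exact allPow_spec _ _ _ _ ker_c19 v (by omega) h19 hv
  by_cases h20 : v < 21504
  · exact allPow_spec _ _ _ _ ker_c20 v (by omega) h20 hv
  by_cases h21 : v < 22528
  · exact allPow_spec _ _ _ _ ker_c21 v (by omega) h21 hv
  by_cases h22 : v < 23552
  · exact allPow_spec _ _ _ _ ker_c22 v (by omega) h22 hv
  by_cases h23 : v < 24576
  · exact allPow_spec _ _ _ _ ker_c23 v (by omega) h23 hv
  by_cases h24 : v < 25600
  · exact allPow_spec _ _ _ _ ker_c24 v (by omega) h24 hv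
  by_cases h25 : v < 26624
  · exact allPow_spec _ _ _ _ ker_c25 v (by omega) h25 hv
  by_cases h26 : v < 27648
  · exact allPow_spec _ _ _ _ ker_c26 v (by omega) h26 hv
  by_cases h27 : v < 28672
  · exact allPow_spec _ _ _ _ ker_c27 v (by omega) h27 hv
  by_cases h28 : v < 29696
  · exact allPow_spec _ _ _ _ ker_c28 v (by omega) h28 hv
  by_cases h29 : v < 30720
  · exact allPow_spec _ _ _ _ ker_c29 v (by omega) h29 hv
  by_cases h30 : v < 31744
  · exact allPow_spec _ _ _ _ ker_c30 v (by omega) h30 hv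
  exact allPow_spec _ _ _ _ ker_c31 v (by omega) (by omega) hv

end CfsgLib.SporadicB.Fi23Derived
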