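import Cfsg.Agent.Lib.SporadicB.Fi23Derived.Scan

/-! Part 0 of a scan. -/

set_option autoImplicit false
set_option maxRecDepth 100000
set_option Elab.async false
set_option linter.all false

namespace CfsgLib.SporadicB.Fi23Derived

open CfsgLib.SporRecognition.CosetCert
open CfsgLib.SporRecognition.Cert
open Cfsg.Spor.Fi23 (Gen)

theorem ker_c0 : allPow 31671 kerStep 10 0 = true := by decide +kernel

theorem ker_c1 : allPow 31671 kerStep 10 1024 = true := by decide +kernel

theorem ker_c2 : allPow 31671 kerStep 10 2048 = true := by decide +kernel

theorem ker_c3 : allPow 31671 kerStep 10 3072 = true := by decide +kernel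

theorem ker_c4 : allPow 31671 kerStep 10 4096 = true := by decide +kernel

theorem ker_c5 : allPow 31671 kerStep 10 5120 = true := by decide +kernel

theorem ker_c6 : allPow 31671 kerStep 10 6144 = true := by decide +kernel

theorem ker_c7 : allPow 31671 kerStep 10 7168 = true := by decide +kernel

theorem ker_c8 : allPow 31671 kerStep 10 8192 = true := by decide +kernel

theorem ker_c9 : allPow 31671 kerStep 10 9216 = true := by decide +kernel

theorem ker_c10 : allPow 31671 kerStep 10 10240 = true := by decide +kernel

theorem ker_c11 : allPow 31671 kerStep 10 11264 = true := by decide +kernel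

theorem ker_c12 : allPow 31671 kerStep 10 12288 = true := by decide +kernel

theorem ker_c13 : allPow 31671 kerStep 10 13312 = true := by decide +kernel

theorem ker_c14 : allPow 31671 kerStep 10 14336 = true := by decide +kernel

theorem ker_c15 : allPow 31671 kerStep 10 15360 = true := by decide +kernel

end CfsgLib.SporadicB.Fi23Derived
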