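import Cfsg.Agent.Lib.SporadicB.Fi23Derived.Defs
import Cfsg.Agent.Lib.SporadicB.Fi23Derived.Levels

/-! Checks on the steps of the chain. -/

set_option autoImplicit false
set_option maxRecDepth 100000
set_option Elab.async false
set_option linter.all false

namespace CfsgLib.SporadicB.Fi23Derived

open CfsgLib.SporRecognition.CosetCert
open CfsgLib.SporRecognition.Cert
open Cfsg.Spor.Fi23 (Gen)

theorem orbit0_ok : orbitOK elts level0 = true := by decide +kernel

theorem pats0_ok : allBelow 9 324 (patStep level0) = true := by decide +kernel

theorem wit0_ok : allBelow 9 324 (witStep level0) = true := by decide +kernel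

theorem orbit1_ok : orbitOK elts level1 = true := by decide +kernel

theorem pats1_ok : allBelow 9 324 (patStep level1) = true := by decide +kernel

theorem wit1_ok : allBelow 9 324 (witStep level1) = true := by decide +kernel

theorem orbit2_ok : orbitOK elts level2 = true := by decide +kernel

theorem pats2_ok : allBelow 9 324 (patStep level2) = true := by decide +kernel

theorem wit2_ok : allBelow 9 324 (witStep level2) = true := by decide +kernel

theorem orbit3_ok : orbitOK elts level3 = true := by decide +kernel

theorem pats3_ok : allBelow 9 324 (patStep level3) = true := by decide +kernel

theorem wit3_ok : allBelow 9 324 (witStep level3) = true := by decide +kernel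

theorem orbit4_ok : orbitOK elts level4 = true := by decide +kernel

theorem pats4_ok : allBelow 9 324 (patStep level4) = true := by decide +kernel

theorem wit4_ok : allBelow 9 324 (witStep level4) = true := by decide +kernel

end CfsgLib.SporadicB.Fi23Derived
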