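import Cfsg.Agent.Lib.SporadicB.Fi23Derived.Scan

/-! Part 3 of a scan. -/

set_option autoImplicit false
set_option maxRecDepth 100000
set_option Elab.async false
set_option linter.all false

namespace CfsgLib.SporadicB.Fi23Derived

open CfsgLib.SporRecognition.CosetCert
open CfsgLib.SporRecognition.Cert
open Cfsg.Spor.Fi23 (Gen)

theorem orb_c24 : allPow 31671 orbStep' 10 24576 = true := by decide +kernel

theorem orb_c25 : allPow 31671 orbStep' 10 25600 = true := by decide +kernel

theorem orb_c26 : allPow 31671 orbStep' 10 26624 = true := by decide +kernel

theorem orb_c27 : allPow 31671 orbStep' 10 27648 = true := by decide +kernel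

theorem orb_c28 : allPow 31671 orbStep' 10 28672 = true := by decide +kernel

theorem orb_c29 : allPow 31671 orbStep' 10 29696 = true := by decide +kernel

theorem orb_c30 : allPow 31671 orbStep' 10 30720 = true := by decide +kernel

theorem orb_c31 : allPow 31671 orbStep' 10 31744 = true := by decide +kernel

end CfsgLib.SporadicB.Fi23Derived
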