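import Cfsg.Agent.Lib.SporadicB.Fi23Derived.Defs
import Cfsg.Agent.Lib.SporadicB.Fi23Derived.Levels
import Cfsg.Agent.Lib.SporadicB.Fi23Derived.OrbitData

/-! The scan of all points. -/

set_option autoImplicit false
set_option maxRecDepth 100000
set_option Elab.async false
set_option linter.all false

namespace CfsgLib.SporadicB.Fi23Derived

open CfsgLib.SporRecognition.CosetCert
open CfsgLib.SporRecognition.Cert
open Cfsg.Spor.Fi23 (Gen)

/-- The packed entry of a point. -/
noncomputable def info (v : Nat) : Nat :=
  Nat.land (Nat.shiftRight (orbTree.get (Nat.shiftRight v 12)) (Nat.mul 28 (Nat.land v 4095))) 268435455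

noncomputable def conv (v : Nat) : Nat := Nat.land (info v) 31
noncomputable def parent (v : Nat) : Nat := Nat.land (Nat.shiftRight (info v) 5) 32767
noncomputable def rank (v : Nat) : Nat := Nat.shiftRight (info v) 20

/-- A point is in the set, is a root or comes from a point of smaller rank. -/
noncomputable def orbStep' (v : Nat) : Bool :=
  bif inS v then (List.range 324).any (fun i => Nat.beq (P i) v) else
    bif Nat.beq (conv v) 31 then roots.any (fun i => Nat.beq (P i) v) else
      decide (convs.getD (conv v) 324 < 324) && Nat.beq (act (convs.getD (conv v) 324) v) (parent v) &&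
        Nat.blt (parent v) 31671 && Nat.blt (rank (parent v)) (rank v) && !inS (parent v)

/-- A point is in the set, is one of three, or is told apart from the first of the three. -/
noncomputable def kerStep (v : Nat) : Bool :=
  bif inS v then true else
    bif kerCand.any (fun u => Nat.beq u v) then true else
      kerTest.any fun i => (Nat.beq (act i v) v) != (Nat.beq (act i (P kerPt)) (P kerPt))

end CfsgLib.SporadicB.Fi23Derived
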