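import Cfsg.Agent.Lib.SporadicB.Fi23Derived.Group
import Cfsg.Agent.Lib.SporadicB.Fi23Derived.OrbAll
import Cfsg.Agent.Lib.SporadicB.Fi23Derived.KerAll
import Cfsg.Agent.Lib.SporadicB.Fi23Derived.LevelCheck
import Cfsg.Agent.Lib.SporadicB.Fi23Derived.BigCheck
import Mathlib.GroupTheory.Index

/-! The stabiliser of the 324 points is maximal and has order divisible only by 2 and 3. -/

set_option autoImplicit false
set_option linter.all false
set_option maxRecDepth 20000

namespace CfsgLib.SporadicB.Fi23Derived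

open CfsgLib.SporRecognition.CosetCert
open CfsgLib.SporRecognition.Cert
open CfsgLib.SporadicB.Fi23
open CfsgLib.SporadicB.Fi23Sylow (pt pt_lt rep_all invols_all eq_one_of_fix)
open Cfsg.Agent.S1688 (R23)
open scoped Pointwise

local notation "ev" => evalW (PresentedGroup.of (rels := R23))

theorem mem_SS_iff (v : Fin 31671) : v ∈ SS ↔ inS v = true := by
  refine ⟨inS_of_mem, fun h => ?_⟩
  have h' := orb_spec v v.2
  rw [orbStep', h, cond_true, List.any_eq_true] at h'
  obtain ⟨i, hi, e⟩ := h'
  exact ⟨i, List.mem_range.mp hi, Fin.ext (Nat.eq_of_beq_eq_true e)⟩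

theorem act_S0 {c : Nat} (hc : c ∈ S0) {v : Fin 31671} (hv : v ∈ SS) : actF c v ∈ SS := by
  obtain ⟨i, hi, rfl⟩ := hv
  rw [mem_SS_iff, actF_val]
  exact List.all_eq_true.mp (List.all_eq_true.mp S0_inv c hc) i (List.mem_range.mpr hi)

/-- The transpositions of the set preserve it. -/
theorem act_SS {c : Nat} (hc : c < 324) : ∀ v ∈ SS, actF c v ∈ SS := by
  refine derives (p := fun c => c < 324 ∧ ∀ v ∈ SS, actF c v ∈ SS) S0 clo clo_ok
    (fun i hi => ⟨S0_mem_lt hi, fun v hv => act_S0 hi hv⟩) ?_ c hc |>.2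
  intro q c a hc' ha hq he
  refine ⟨hq, fun v hv => ?_⟩
  have e : sigma (ev (wd c)) (Q a) = Q q := Fin.ext ((sigma_tr _ _).trans he)
  have hconj := conj_trans (by omega : a < 649) (by omega : q < 649) e
  have hinv : (ev (wd c))⁻¹ = ev (wd c) := by
    obtain ⟨h, -, h2⟩ := exists_trans (i := c) (by omega)
    have hzz : zz * zz = 1 := by
      rw [← pow_two, ← orderOf_zz]
      exact pow_orderOf_eq_one _
    rw [h2, inv_eq_iff_mul_eq_one]
    calc h * zz * h⁻¹ * (h * zz * h⁻¹) = h * (zz * zz) * h⁻¹ := by group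
      _ = 1 := by rw [hzz]; group
  rw [actF, ← hconj, hinv, map_mul, map_mul, Equiv.Perm.mul_apply, Equiv.Perm.mul_apply]
  exact hc'.2 _ (ha.2 _ (hc'.2 v hv))

/-- The stabiliser of the set. -/
noncomputable def HH : Subgroup GG := (MulAction.stabilizer (Equiv.Perm (Fin 31671)) SS).comap sigma

theorem mem_HH {g : GG} : g ∈ HH ↔ ∀ v ∈ SS, sigma g v ∈ SS := by
  rw [HH, Subgroup.mem_comap, MulAction.mem_stabilizer_set]
  refine ⟨fun h v hv => (h v).mpr hv, fun h v => ⟨fun hv => ?_, h v⟩⟩
  have hfin : SS.Finite := Set.toFinite _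
  have hb : (sigma g : Fin 31671 → Fin 31671) '' SS = SS :=
    Set.eq_of_subset_of_ncard_le (Set.image_subset_iff.mpr h)
      (by rw [Set.ncard_image_of_injective _ (sigma g).injective]) hfin
  obtain ⟨w, hw, e⟩ := hb.symm ▸ hv
  rwa [← (sigma g).injective e]

theorem mem_HH_of_S0 {g : GG} (h : ∀ i ∈ S0, sigma g (Q i) ∈ SS) : g ∈ HH := by
  rw [mem_HH]
  rintro v ⟨i, hi, rfl⟩
  refine (derives (p := fun i => i < 324 ∧ sigma g (Q i) ∈ SS) S0 clo clo_ok
    (fun i hi => ⟨S0_mem_lt hi, h i hi⟩) ?_ i hi).2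
  intro q c a hc ha hq he
  refine ⟨hq, ?_⟩
  obtain ⟨j, hj, ej⟩ := hc.2
  rw [show Q q = actF c (Q a) from Fin.ext (by rw [actF_val]; exact he.symm),
    equivariant (by omega : c < 649) (by omega : j < 649) ej.symm]
  exact act_SS hj _ ha.2

theorem trans_mem {i : Nat} (hi : i < 324) : ev (wd i) ∈ HH := mem_HH.mpr fun v hv => act_SS hi v hv

/-- The listed elements. -/
noncomputable def el (k : Nat) : GG := ev (eW (elts.getD k []))

theorem el_mem (k : Nat) : el k ∈ HH := by
  refine mem_HH_of_S0 fun i hi => ?_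
  rw [mem_SS_iff, el, sigma_tr]
  by_cases hk : k < elts.length
  · rw [List.getD_eq_getElem _ _ hk]
    exact List.all_eq_true.mp (List.all_eq_true.mp elts_ok _ (List.getElem_mem hk)) i hi
  · rw [List.getD_eq_default _ _ (Nat.le_of_not_lt hk)]
    exact inS_of_mem ⟨i, S0_mem_lt hi, rfl⟩

/-- The elements of the stabiliser fixing the listed points. -/
noncomputable def fixed : List Nat → Subgroup GG
  | [] => HH
  | i :: l => fixed l ⊓ (MulAction.stabilizer (Equiv.Perm (Fin 31671)) (Q i)).comap sigma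

theorem mem_fixed {g : GG} : ∀ {l : List Nat}, g ∈ fixed l ↔ g ∈ HH ∧ ∀ i ∈ l, sigma g (Q i) = Q i
  | [] => by simp [fixed]
  | i :: l => by
    rw [fixed, Subgroup.mem_inf, mem_fixed, Subgroup.mem_comap, MulAction.mem_stabilizer_iff]
    simp only [List.mem_cons, forall_eq_or_imp, Equiv.Perm.smul_def]
    tauto

theorem fixed_congr {l l' : List Nat} (h : ∀ i, i ∈ l ↔ i ∈ l') : fixed l = fixed l' := by
  ext g
  simp only [mem_fixed, h]

theorem fixed_congr' {l l' : List Nat}
    (h : (l.all (fun i => l'.contains i) && l'.all (fun i => l.contains i)) = true) : fixed l = fixed l' := by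
  simp only [Bool.and_eq_true, List.all_eq_true, List.contains_iff_mem] at h
  exact fixed_congr fun i => ⟨h.1 i, h.2 i⟩

/-- Orbit and stabiliser. -/
theorem card_step (K : Subgroup GG) (i : Nat) :
    Nat.card K = (Set.range fun g : K => sigma (g : GG) (Q i)).ncard *
      Nat.card ↥(K ⊓ (MulAction.stabilizer (Equiv.Perm (Fin 31671)) (Q i)).comap sigma) := by
  letI : MulAction K (Fin 31671) := MulAction.compHom _ (sigma.comp K.subtype)
  have e : (MulAction.stabilizer K (Q i)).map K.subtype =
      K ⊓ (MulAction.stabilizer (Equiv.Perm (Fin 31671)) (Q i)).comap sigma := by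
    ext g
    constructor
    · rintro ⟨x, hx, rfl⟩
      exact ⟨x.2, hx⟩
    · rintro ⟨hg, hx⟩
      exact ⟨⟨g, hg⟩, hx, rfl⟩
  rw [← e, Subgroup.card_map_of_injective K.subtype_injective,
    show (Set.range fun g : K => sigma (g : GG) (Q i)) = MulAction.orbit K (Q i) from rfl,
    ← MulAction.index_stabilizer, Subgroup.index_mul_card]

theorem leaves_lt {pre : List Nat} {b : Nat} (hpre : ∀ i ∈ pre, i < 324) (hb : b < 324) (c : Nat) :
    leaves pre b c < 324 := by
  rw [leaves]
  by_cases hc : c < pre.length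
  · rw [List.getD_eq_getElem _ _ hc]; exact hpre _ (List.getElem_mem hc)
  · rwa [List.getD_eq_default _ _ (Nat.le_of_not_lt hc)]

theorem code_eq (terms : List (List Nat × Nat)) {ρ ρ' : Nat → Nat} {g : GG} {w w' : Nat} (hw : w < 649)
    (hw' : w' < 649) (e : sigma g (Q w) = Q w') (hv : ∀ t, sigma g (valT ρ t) = valT ρ' t) :
    code terms ρ w = code terms ρ' w' := by
  induction terms with
  | nil => rfl
  | cons t l ih =>
    simp only [code, List.foldr_cons] at ih ⊢
    rw [ih]
    have e1 : (act w (evalT ρ t) = evalT ρ t) ↔ (act w' (evalT ρ' t) = evalT ρ' t) := by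
      rw [← valT_val, ← valT_val, ← actF_val, ← actF_val, Fin.val_inj, Fin.val_inj,
        ← (sigma g).injective.eq_iff, equivariant hw hw' e, hv]
    have e2 : (P w = evalT ρ t) ↔ (P w' = evalT ρ' t) := by
      rw [← valT_val, ← valT_val, show P w = (Q w : Nat) from rfl, show P w' = (Q w' : Nat) from rfl,
        Fin.val_inj, Fin.val_inj, ← (sigma g).injective.eq_iff, e, hv]
    have f1 : Nat.beq (act w (evalT ρ t)) (evalT ρ t) = Nat.beq (act w' (evalT ρ' t)) (evalT ρ' t) := by
      rw [Bool.eq_iff_iff, Nat.beq_eq, Nat.beq_eq]; exact e1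
    have f2 : Nat.beq (P w) (evalT ρ t) = Nat.beq (P w') (evalT ρ' t) := by
      rw [Bool.eq_iff_iff, Nat.beq_eq, Nat.beq_eq]; exact e2
    rw [f1, f2]

/-- The orbit of one step. -/
theorem range_step (L : Level) (ho : orbitOK elts L = true) (hp : allBelow 9 324 (patStep L) = true)
    (hw : allBelow 9 324 (witStep L) = true) :
    (Set.range fun g : fixed L.pre => sigma (g : GG) (Q L.b)) = ↑((L.orbit.map Q).toFinset) := by
  simp only [orbitOK, Bool.and_eq_true, decide_eq_true_eq, List.all_eq_true, List.mem_range, Nat.beq_eq,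
    Bool.or_eq_true] at ho
  obtain ⟨⟨⟨⟨⟨hb, hpre⟩, horb⟩, hgens⟩, h0⟩, hsteps⟩ := ho
  ext v
  simp only [Set.mem_range, List.coe_toFinset, Set.mem_ofPred_eq, List.mem_map]
  constructor
  · rintro ⟨⟨g, hg⟩, rfl⟩
    obtain ⟨hgH, hfix⟩ := mem_fixed.mp hg
    obtain ⟨j, hj, ej⟩ := mem_HH.mp hgH _ ⟨L.b, hb, rfl⟩
    have hρ : ∀ c, leaves L.pre L.b c < 649 ∧ leaves L.pre j c < 649 ∧
        sigma g (Q (leaves L.pre L.b c)) = Q (leaves L.pre j c) := by
      intro c
      refine ⟨(leaves_lt hpre hb c).trans (by norm_num), (leaves_lt hpre hj c).trans (by norm_num), ?_⟩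
      simp only [leaves]
      by_cases hc : c < L.pre.length
      · rw [List.getD_eq_getElem _ _ hc, List.getD_eq_getElem _ _ hc]
        exact hfix _ (List.getElem_mem hc)
      · rw [List.getD_eq_default _ _ (Nat.le_of_not_lt hc), List.getD_eq_default _ _ (Nat.le_of_not_lt hc)]
        exact ej.symm
    have hv := map_valT hρ
    have hW := allBelow_spec hw j hj
    unfold witStep at hW
    split at hW
    · rename_i p _
      simp only [Bool.and_eq_true, decide_eq_true_eq, Nat.beq_eq] at hW
      refine ⟨j, ?_, ej⟩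
      obtain ⟨hp', e'⟩ := hW
      rw [List.getD_eq_getElem _ _ hp'] at e'
      exact e' ▸ List.getElem_mem hp'
    · rename_i t1 t2 _
      exfalso
      have e : Nat.beq (evalT (leaves L.pre L.b) t1) (evalT (leaves L.pre L.b) t2) =
          Nat.beq (evalT (leaves L.pre j) t1) (evalT (leaves L.pre j) t2) := by
        rw [Bool.eq_iff_iff, Nat.beq_eq, Nat.beq_eq, ← valT_val, ← valT_val, ← valT_val, ← valT_val,
          Fin.val_inj, Fin.val_inj, ← hv, ← hv, (sigma g).injective.eq_iff]
      rw [e] at hW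
      simp at hW
    · rename_i w _
      exfalso
      simp only [Bool.and_eq_true, decide_eq_true_eq, Bool.not_eq_true'] at hW
      obtain ⟨⟨hwlt, hne⟩, hnot⟩ := hW
      have hginv : g⁻¹ ∈ HH := inv_mem hgH
      obtain ⟨i, hi, ei⟩ := mem_HH.mp hginv _ ⟨w, hwlt, rfl⟩
      have e : sigma g (Q i) = Q w := by
        rw [ei, ← Equiv.Perm.mul_apply, ← map_mul, mul_inv_cancel, map_one, Equiv.Perm.one_apply]
      have hc := code_eq L.terms (w := i) (w' := w) (by omega) (by omega) e hv
      have hP := allBelow_spec hp i hi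
      simp only [patStep, Bool.or_eq_true] at hP
      rcases hP with hP | hP
      · rw [hne] at hP; exact Bool.false_ne_true hP
      · rw [hc, hnot] at hP; exact Bool.false_ne_true hP
  · rintro ⟨q, hq, rfl⟩
    obtain ⟨m, hm, rfl⟩ := List.getElem_of_mem hq
    induction m using Nat.strong_induction_on with
    | _ m ih =>
      rcases hsteps m hm with h | ⟨⟨hlt, hgen⟩, he⟩
      · subst h
        refine ⟨1, ?_⟩
        rw [List.getD_eq_getElem _ _ hm] at h0
        simp [h0]
      · have hlt' : (L.steps.getD m (0, 0)).1 < L.orbit.length := hlt.trans hm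
        obtain ⟨x, hx⟩ := ih _ hlt hlt' (List.getElem_mem hlt')
        have hgen' := List.contains_iff_mem.mp hgen
        have hs : el (L.steps.getD m (0, 0)).2 ∈ fixed L.pre := by
          refine mem_fixed.mpr ⟨el_mem _, fun i hi => Fin.ext ?_⟩
          rw [el, sigma_tr]
          exact hgens _ hgen' i hi
        refine ⟨⟨el (L.steps.getD m (0, 0)).2, hs⟩ * x, ?_⟩
        show sigma (el (L.steps.getD m (0, 0)).2 * (x : GG)) (Q L.b) = _
        rw [map_mul, Equiv.Perm.mul_apply, hx]
        refine Fin.ext ?_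
        rw [el, sigma_tr]
        rw [List.getD_eq_getElem _ _ hlt', List.getD_eq_getElem _ _ hm] at he
        exact he

theorem card_fixed (L : Level) (ho : orbitOK elts L = true) (hp : allBelow 9 324 (patStep L) = true)
    (hw : allBelow 9 324 (witStep L) = true) (hn : (L.orbit.map P).Nodup) :
    Nat.card (fixed L.pre) = L.orbit.length * Nat.card (fixed (L.b :: L.pre)) := by
  rw [card_step (fixed L.pre) L.b, range_step L ho hp hw, Set.ncard_coe_finset, List.toFinset_card_of_nodup,
    List.length_map]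
  · rfl
  · exact List.Nodup.of_map Fin.val (by rwa [List.map_map])

theorem nodup_orbits : (level0.orbit.map P).Nodup ∧ (level1.orbit.map P).Nodup ∧ (level2.orbit.map P).Nodup ∧
    (level3.orbit.map P).Nodup ∧ (level4.orbit.map P).Nodup := by decide +kernel

/-- Fixing the base fixes the set. -/
theorem fix_SS {g : GG} (h : ∀ i ∈ base, sigma g (Q i) = Q i) (hb : base.all (fun i => decide (i < 324)) = true) :
    ∀ i, i < 324 → sigma g (Q i) = Q i := by
  intro i hi
  refine (derives (p := fun i => i < 324 ∧ sigma g (Q i) = Q i) base fromBase fromBase_ok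
    (fun i hi => ⟨by simpa using List.all_eq_true.mp hb i hi, h i hi⟩) ?_ i hi).2
  intro q c a hc ha hq he
  refine ⟨hq, ?_⟩
  rw [show Q q = actF c (Q a) from Fin.ext (by rw [actF_val]; exact he.symm),
    equivariant (by omega : c < 649) (by omega : c < 649) hc.2, ha.2]

theorem base_lt : base.all (fun i => decide (i < 324)) = true := by decide +kernel

theorem base_iff : ∀ i, i ∈ base ↔ i ∈ level4.b :: level4.pre := by
  have h : base.all (fun i => (level4.b :: level4.pre).contains i) = true ∧
      (level4.b :: level4.pre).all (fun i => base.contains i) = true := by decide +kernel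
  simp only [List.all_eq_true, List.contains_iff_mem] at h
  exact fun i => ⟨h.1 i, h.2 i⟩

theorem big_mem {d : Nat × Option (Nat × Nat) × List (List Nat × Nat)} (hd : bigStep d = true) (K : Subgroup GG)
    (hS : ∀ i, i < 324 → ev (wd i) ∈ K) (hd1 : d.1 < 649) (hT : ev (wd d.1) ∈ K)
    (hx : ∀ g x, d.2.1 = some (g, x) → x < 649 ∧ el g ∈ K) : K = ⊤ := by
  obtain ⟨r, o, ts⟩ := d
  simp only [bigStep, Bool.and_eq_true, decide_eq_true_eq, List.all_eq_true, List.mem_range, Nat.beq_eq,
    Bool.or_eq_true] at hd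
  obtain ⟨⟨hlen, ho⟩, hts⟩ := hd
  have hleaf : ∀ i, (i < 324 ∨ i = r) ∨ (match o with | none => false | some (_, x) => Nat.beq i x) = true →
      ev (wd i) ∈ K ∧ i < 649 := by
    rintro i ((hi | rfl) | hi)
    · exact ⟨hS i hi, by omega⟩
    · exact ⟨hT, hd1⟩
    · cases o with
      | none => simp at hi
      | some p =>
        obtain ⟨g, x⟩ := p
        obtain ⟨hx1, hx2⟩ := hx g x rfl
        simp only [Nat.beq_eq] at hi
        subst hi
        simp only [Bool.and_eq_true, decide_eq_true_eq, Nat.beq_eq] at ho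
        refine ⟨?_, hx1⟩
        rw [← conj_trans hd1 hx1 (g := el g) (Fin.ext ((sigma_tr _ _).trans ho.2))]
        exact mul_mem (mul_mem hx2 hT) (inv_mem hx2)
  have hgen : ∀ a : Cfsg.Spor.Fi23.Gen, PresentedGroup.of (rels := R23) a ∈ K := by
    intro a
    obtain ⟨j, hj, hja⟩ := List.getElem_of_mem (invols_all a)
    have hj10 : j < 10 := hj
    obtain ⟨hval, hl⟩ := hts j hj10
    rw [List.getD_eq_getElem _ _ hj, hja] at hval
    generalize hgen' : ts.getD j ([], 0) = t at hval hl
    obtain ⟨l, i0⟩ := t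
    have key : ∀ l' : List Nat, (∀ c ∈ l', c ∈ l) →
        ∃ h : GG, sigma h 0 = valT id (l', i0) ∧ h * zz * h⁻¹ ∈ K := by
      intro l' hl'
      induction l' with
      | nil =>
        obtain ⟨hm, hi⟩ := hleaf i0 (by have := hl i0 (List.mem_cons_self ..); cases o <;> exact this)
        obtain ⟨h, h1, h2⟩ := exists_trans hi
        exact ⟨h, h1, h2 ▸ hm⟩
      | cons c l' ih =>
        obtain ⟨h, h1, h2⟩ := ih fun c hc => hl' c (List.mem_cons_of_mem _ hc)
        obtain ⟨hm, hc⟩ := hleaf c (by
          have := hl c (List.mem_cons_of_mem _ (hl' c (List.mem_cons_self ..))); cases o <;> exact this)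
        refine ⟨ev (wd c) * h, ?_, ?_⟩
        · rw [map_mul, Equiv.Perm.mul_apply, h1]; rfl
        · rw [show ev (wd c) * h * zz * (ev (wd c) * h)⁻¹ = ev (wd c) * (h * zz * h⁻¹) * (ev (wd c))⁻¹ by group]
          exact mul_mem (mul_mem hm h2) (inv_mem hm)
    obtain ⟨h, h1, h2⟩ := key l fun c hc => hc
    obtain ⟨k, hk, he⟩ := rep_all a
    rw [he, ← conj_zz_eq (h := h) (h' := k) (Fin.ext (by rw [h1, hk, valT_val]; exact hval))]
    exact h2
  rw [eq_top_iff, ← PresentedGroup.closure_range_of R23, Subgroup.closure_le]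
  rintro _ ⟨a, rfl⟩
  exact hgen a

theorem kerCand_len : kerCand.length = 3 := by decide +kernel

theorem kerTest_lt : kerTest.all (fun i => decide (i < 324)) = true := by decide +kernel

theorem kerPt_ok : kerPt < 649 ∧ inS (P kerPt) = false ∧
    bigData.any (fun d => Nat.beq d.1 kerPt && d.2.1.isNone) = true := by decide +kernel

/-- Fixing the set and one point outside it is trivial. -/
theorem eq_one_of_fix_all {g : GG} (hS : ∀ i, i < 324 → sigma g (Q i) = Q i) (hr : sigma g (Q kerPt) = Q kerPt) :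
    g = 1 := by
  obtain ⟨hr649, -, hd⟩ := kerPt_ok
  simp only [List.any_eq_true, Bool.and_eq_true, Nat.beq_eq] at hd
  obtain ⟨⟨r, o, ts⟩, hdm, hdr, hdn⟩ := hd
  dsimp only at hdr hdn
  subst hdr
  have ho : o = none := Option.isNone_iff_eq_none.mp hdn
  subst ho
  let C : Subgroup GG := Subgroup.centralizer {g}
  have hcomm : ∀ i, i < 649 → sigma g (Q i) = Q i → ev (wd i) ∈ C := by
    intro i hi e
    rw [Subgroup.mem_centralizer_singleton_iff]
    have := conj_trans hi hi e
    exact (mul_inv_eq_iff_eq_mul.mp this).symm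
  have hC : C = ⊤ := big_mem (List.all_eq_true.mp big_ok _ hdm) C (fun i hi => hcomm i (by omega) (hS i hi)) hr649
    (hcomm _ hr649 hr) (fun g x h => by simp at h)
  have : g ∈ Subgroup.center GG := by
    rw [Subgroup.mem_center_iff]
    intro x
    exact Subgroup.mem_centralizer_singleton_iff.mp (hC ▸ Subgroup.mem_top x : x ∈ C)
  rwa [CfsgLib.SporadicB.Fi23Sylow.center_eq_bot, Subgroup.mem_bot] at this

theorem card_last : Nat.card (fixed base) ∣ 6 := by
  have h3 : (Set.range fun g : fixed base => sigma (g : GG) (Q kerPt)).ncard ≤ 3 := by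
    classical
    have hsub : (Set.range fun g : fixed base => sigma (g : GG) (Q kerPt)) ⊆
        ↑((kerCand.map fun u => (⟨u % 31671, Nat.mod_lt _ (by norm_num)⟩ : Fin 31671)).toFinset) := by
      rintro v ⟨⟨g, hg⟩, rfl⟩
      obtain ⟨hgH, hfix⟩ := mem_fixed.mp hg
      have hS := fix_SS hfix base_lt
      set v := sigma g (Q kerPt) with hv
      have hns : inS v ≠ true := fun h => by
        have h2 := mem_HH.mp (inv_mem hgH) v ((mem_SS_iff v).mpr h)
        rw [hv, ← Equiv.Perm.mul_apply, ← map_mul, inv_mul_cancel, map_one, Equiv.Perm.one_apply, mem_SS_iff] at h2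
        exact Bool.false_ne_true (kerPt_ok.2.1.symm.trans h2)
      have hk := ker_spec v v.2
      rw [kerStep, Bool.eq_false_iff.mpr hns, cond_false] at hk
      simp only [List.coe_toFinset, Set.mem_ofPred_eq, List.mem_map]
      cases hc : kerCand.any (fun u => Nat.beq u v) with
      | true =>
        obtain ⟨u, hu, e⟩ := List.any_eq_true.mp hc
        refine ⟨u, hu, Fin.ext ?_⟩
        rw [Nat.eq_of_beq_eq_true e]
        exact Nat.mod_eq_of_lt v.2
      | false =>
        exfalso
        rw [hc, cond_false, List.any_eq_true] at hk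
        obtain ⟨i, hi, hne⟩ := hk
        have hi' : i < 324 := by simpa using List.all_eq_true.mp kerTest_lt i hi
        have e : Nat.beq (act i v) v = Nat.beq (act i (P kerPt)) (P kerPt) := by
          rw [Bool.eq_iff_iff, Nat.beq_eq, Nat.beq_eq, show P kerPt = (Q kerPt : Nat) from rfl, ← actF_val,
            ← actF_val, Fin.val_inj, Fin.val_inj]
          rw [hv, ← equivariant (by omega : i < 649) (by omega : i < 649) (hS i hi'), (sigma g).injective.eq_iff]
        rw [e] at hne
        simp at hne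
    refine (Set.ncard_le_ncard hsub).trans ?_
    rw [Set.ncard_coe_finset]
    exact (List.toFinset_card_le _).trans (by rw [List.length_map, kerCand_len])
  have hbot : fixed base ⊓ (MulAction.stabilizer (Equiv.Perm (Fin 31671)) (Q kerPt)).comap sigma = ⊥ := by
    rw [eq_bot_iff]
    rintro g ⟨hg, hr⟩
    exact (Subgroup.mem_bot).mpr (eq_one_of_fix_all (fix_SS (mem_fixed.mp hg).2 base_lt) hr)
  rw [card_step (fixed base) kerPt, hbot, Subgroup.card_bot, mul_one]
  have h1 : 0 < (Set.range fun g : fixed base => sigma (g : GG) (Q kerPt)).ncard :=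
    (Set.ncard_pos (Set.toFinite _)).mpr (Set.range_nonempty _)
  generalize (Set.range fun g : fixed base => sigma (g : GG) (Q kerPt)).ncard = N at h1 h3
  interval_cases N <;> norm_num

theorem card_HH_dvd : Nat.card HH ∣ 2 ^ 40 * 3 ^ 40 := by
  obtain ⟨n0, n1, n2, n3, n4⟩ := nodup_orbits
  have c0 := card_fixed level0 orbit0_ok pats0_ok wit0_ok n0
  have c1 := card_fixed level1 orbit1_ok pats1_ok wit1_ok n1
  have c2 := card_fixed level2 orbit2_ok pats2_ok wit2_ok n2
  have c3 := card_fixed level3 orbit3_ok pats3_ok wit3_ok n3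
  have c4 := card_fixed level4 orbit4_ok pats4_ok wit4_ok n4
  rw [show level0.orbit.length = 324 by decide +kernel] at c0
  rw [show level1.orbit.length = 288 by decide +kernel] at c1
  rw [show level2.orbit.length = 216 by decide +kernel] at c2
  rw [show level3.orbit.length = 27 by decide +kernel] at c3
  rw [show level4.orbit.length = 2 by decide +kernel] at c4
  rw [show level0.pre = [] by decide +kernel, show fixed [] = HH by rw [fixed]] at c0
  have e0 : fixed (level0.b :: []) = fixed level1.pre := fixed_congr' (by decide +kernel)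
  have e1 : fixed (level1.b :: level1.pre) = fixed level2.pre := fixed_congr' (by decide +kernel)
  have e2 : fixed (level2.b :: level2.pre) = fixed level3.pre := fixed_congr' (by decide +kernel)
  have e3 : fixed (level3.b :: level3.pre) = fixed level4.pre := fixed_congr' (by decide +kernel)
  have e4 : fixed (level4.b :: level4.pre) = fixed base := fixed_congr' (by decide +kernel)
  rw [e0] at c0
  rw [e1] at c1
  rw [e2] at c2
  rw [e3] at c3
  rw [e4] at c4
  rw [c0, c1, c2, c3, c4]
  refine Dvd.dvd.trans ?_ (show 324 * (288 * (216 * (27 * (2 * 6)))) ∣ 2 ^ 40 * 3 ^ 40 by norm_num)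
  exact mul_dvd_mul_left _ (mul_dvd_mul_left _ (mul_dvd_mul_left _ (mul_dvd_mul_left _
    (mul_dvd_mul_left _ card_last))))

theorem HH_ne_top : HH ≠ ⊤ := by
  intro h
  obtain ⟨h1, h2⟩ := outside_ok
  have := mem_HH.mp (h ▸ Subgroup.mem_top (ev [(outside.1, true)]) : ev [(outside.1, true)] ∈ HH) _
    ⟨outside.2, h2, rfl⟩
  rw [mem_SS_iff, sigma_tr] at this
  exact Bool.false_ne_true (h1.symm.trans this)

theorem roots_big : roots.all (fun r => bigData.any fun d => Nat.beq d.1 r &&
    (decide (r < 649) && match d.2.1 with | none => true | some p => decide (p.2 < 649))) = true := by decide +kernel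

theorem convs_lt {c : Nat} (h : convs.getD c 324 < 324) : convs.getD c 324 < 649 := by omega

/-- The stabiliser is maximal. -/
theorem isCoatom_HH : IsCoatom HH := by
  refine ⟨HH_ne_top, fun K hK => ?_⟩
  obtain ⟨hle, g, hgK, hgH⟩ := SetLike.lt_iff_le_and_exists.mp hK
  have hS : ∀ i, i < 324 → ev (wd i) ∈ K := fun i hi => hle (trans_mem hi)
  obtain ⟨v, hv, hvn⟩ : ∃ v ∈ SS, sigma g v ∉ SS := by
    by_contra! h
    exact hgH (mem_HH.mpr h)
  obtain ⟨i, hi, rfl⟩ := hv
  obtain ⟨h0, h01, h02⟩ := exists_trans (i := i) (by omega)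
  have hstart : ∃ h : GG, sigma h 0 = sigma g (Q i) ∧ h * zz * h⁻¹ ∈ K :=
    ⟨g * h0, by rw [map_mul, Equiv.Perm.mul_apply, h01], by
      rw [show g * h0 * zz * (g * h0)⁻¹ = g * (h0 * zz * h0⁻¹) * g⁻¹ by group, ← h02]
      exact mul_mem (mul_mem hgK (hS i hi)) (inv_mem hgK)⟩
  have key : ∀ n, ∀ v : Fin 31671, rank v = n → v ∉ SS →
      (∃ h : GG, sigma h 0 = v ∧ h * zz * h⁻¹ ∈ K) → K = ⊤ := by
    intro n
    induction n using Nat.strong_induction_on with
    | _ n ih =>
      rintro v rfl hv ⟨h, h1, h2⟩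
      have hstep := orb_spec v v.2
      rw [mem_SS_iff, Bool.not_eq_true] at hv
      rw [orbStep', hv, cond_false] at hstep
      cases hc : Nat.beq (conv v) 31 with
      | true =>
        rw [hc, cond_true, List.any_eq_true] at hstep
        obtain ⟨r, hr, er⟩ := hstep
        have hb := List.all_eq_true.mp roots_big r hr
        simp only [List.any_eq_true, Bool.and_eq_true, decide_eq_true_eq, Nat.beq_eq] at hb
        obtain ⟨d, hdm, rfl, hd1, hd2⟩ := hb
        obtain ⟨hh, hh1, hh2⟩ := exists_trans hd1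
        refine big_mem (List.all_eq_true.mp big_ok d hdm) K hS hd1 ?_ ?_
        · rw [hh2, ← conj_zz_eq (h := h) (h' := hh)
            (by rw [h1, hh1]; exact Fin.ext (Nat.eq_of_beq_eq_true er).symm)]
          exact h2
        · intro g' x' e
          rw [e] at hd2
          exact ⟨of_decide_eq_true hd2, hle (el_mem _)⟩
      | false =>
        rw [hc, cond_false] at hstep
        simp only [Bool.and_eq_true, decide_eq_true_eq, Nat.beq_eq, Nat.blt_eq, Bool.not_eq_true'] at hstep
        obtain ⟨⟨⟨⟨hc', he⟩, hp⟩, hrk⟩, hps⟩ := hstep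
        refine ih _ hrk ⟨parent v, hp⟩ rfl ?_ ⟨ev (wd (convs.getD (conv v) 324)) * h, ?_, ?_⟩
        · rw [mem_SS_iff, Bool.not_eq_true]; exact hps
        · rw [map_mul, Equiv.Perm.mul_apply, h1]
          exact Fin.ext ((sigma_tr _ _).trans he)
        · rw [show ev (wd (convs.getD (conv v) 324)) * h * zz * (ev (wd (convs.getD (conv v) 324)) * h)⁻¹ =
            ev (wd (convs.getD (conv v) 324)) * (h * zz * h⁻¹) * (ev (wd (convs.getD (conv v) 324)))⁻¹ by group]
          exact mul_mem (mul_mem (hS _ hc') h2) (inv_mem (hS _ hc'))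
  exact key _ (sigma g (Q i)) rfl hvn hstart

end CfsgLib.SporadicB.Fi23Derived
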